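import Cfsg.Agent.Lib.PLocal.Factor
import Cfsg.Agent.Lib.PLocal.ZJ2
import Cfsg.Agent.Lib.PLocal.NoSL2b
import Cfsg.Agent.Lib.PLocal.Misc
import Cfsg.Agent.Lib.PSolv.Basic
import Cfsg.Agent.Lib.CharExtra.Ito
import Cfsg.Agent.Lib.Classical.ExcSL2
import Mathlib

/-! The Thompson factorization for solvable groups. -/

set_option autoImplicit false

namespace Cfsg.Agent.Lib.Transfer

open Cfsg Cfsg.Agent.Lib.PLocal Cfsg.Agent.Lib.PLocal.QuadMat Cfsg.Agent.Lib.Techniques

variable {G : Type*} [Group G] [Finite G] {p : ℕ} [Fact p.Prime]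

theorem noSL2_of_solvable (hp : p ≠ 2) (hs : Group.IsSolvable G)
    (h3 : p = 3 → ∀ T : Sylow 2 G, IsMulCommutative T) : NoSL2 p G := by
  by_cases hp3 : p = 3
  · exact noSL2_of_comm_sylow hp (h3 hp3)
  intro K L hL
  refine ⟨fun iso => ?_⟩
  have hpp : p.Prime := Fact.out
  haveI : Fact p.Prime := ⟨hpp⟩
  haveI := hL
  haveI := hs
  haveI : Group.IsSolvable (Matrix.SpecialLinearGroup (Fin 2) (ZMod p)) :=
    Group.isSolvable_of_surjective (f := iso.toMonoidHom) iso.surjective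
  have h4 : 4 ≤ Fintype.card (ZMod p) := by
    rw [ZMod.card]
    have := hpp.two_le
    have h5 : p ≠ 4 := by
      rintro rfl
      exact absurd hpp (by norm_num)
    omega
  have h1 := Cfsg.Agent.Lib.Classical.Exc.sl2_perfect (F := ZMod p) h4
  haveI : Nontrivial (Matrix.SpecialLinearGroup (Fin 2) (ZMod p)) := by
    refine ⟨⟨⟨!![1, 1; 0, 1], by simp [Matrix.det_fin_two]⟩, 1, fun h => ?_⟩⟩
    have := congrArg (fun m : Matrix.SpecialLinearGroup (Fin 2) (ZMod p) => m.1 0 1) h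
    simp at this
  have h2 := Group.IsSolvable.commutator_lt_top_of_nontrivial (Matrix.SpecialLinearGroup (Fin 2) (ZMod p))
  rw [h1] at h2
  exact lt_irrefl _ h2

theorem thompson_factorization (hp : p ≠ 2) (hs : Group.IsSolvable G)
    (h3 : p = 3 → ∀ T : Sylow 2 G, IsMulCommutative T)
    (hF : ∀ N : Subgroup G, N.Normal → Nat.Coprime (Nat.card N) p → N = ⊥) (P : Sylow p G) (g : G) :
    ∃ a ∈ Subgroup.normalizer (thompsonSubgroupOf p (P : Subgroup G) : Set G),
      ∃ c ∈ Subgroup.centralizer {x : G | x ∈ (P : Subgroup G) ∧ (∀ y ∈ (P : Subgroup G), x * y = y * x) ∧ x ^ p = 1},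
        g = a * c := by
  have hpp : p.Prime := Fact.out
  have hNo := noSL2_of_solvable hp hs h3
  have hO : pPrimeCore p G = ⊥ := by
    rw [pPrimeCore, eq_bot_iff]
    apply sSup_le
    rintro N ⟨hN, hc⟩
    rw [hF N hN hc]
  have hc : Subgroup.centralizer (pCore p G : Set G) ≤ pCore p G :=
    Cfsg.Agent.Lib.PSolv.centralizer_pCore_le (Cfsg.Agent.Lib.CharExtra.pStep_of_isSolvable hpp) hO
  have hchar := zj_ea_char hp P hc (fun W _ hW a _ hq => isPStableOn_pgroup_of_noSL2 hp hNo W hW a hq)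
  set W : Subgroup G := (omegaCenterThompson p ↥(P : Subgroup G)).map (P : Subgroup G).subtype with hW
  haveI hWn : W.Normal := Subgroup.normal_of_characteristic W
  set C := Subgroup.centralizer (W : Set G) with hC
  have hCn : C.Normal := inferInstance
  have hR : SylowIn p ((P : Subgroup G) ⊓ C) C :=
    (sylowIn_top_of_sylow P).inf_of_normal le_top (by rw [Subgroup.normalizer_eq_top_iff.mpr hCn])
  have hconjC : conjS g⁻¹ C = C := by
    rw [← mem_normalizer_iff_conjS, Subgroup.normalizer_eq_top_iff.mpr hCn]; trivial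
  have hR' : SylowIn p (conjS g⁻¹ ((P : Subgroup G) ⊓ C)) C := by
    have := hR.conj g⁻¹
    rwa [hconjC] at this
  obtain ⟨c, hc', hcR⟩ := hR.exists_conj_eq hR'
  have hn : c⁻¹ * g⁻¹ ∈ Subgroup.normalizer ((((P : Subgroup G) ⊓ C : Subgroup G)) : Set G) := by
    rw [mem_normalizer_iff_conjS, conjS_mul, ← hcR, conjS_inv_conjS]
  have hJW : thompsonSubgroupOf p (P : Subgroup G) ≤ C := by
    rintro _ ⟨j, hj, rfl⟩
    rw [hC, Subgroup.mem_centralizer_iff]
    rintro _ ⟨w, hw, rfl⟩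
    have hw1 : w ∈ Subgroup.centralizer (thompsonSubgroup p ↥(P : Subgroup G) : Set ↥(P : Subgroup G)) := by
      have h1 : omegaCenterThompson p ↥(P : Subgroup G) ≤
          Subgroup.centralizer (thompsonSubgroup p ↥(P : Subgroup G) : Set ↥(P : Subgroup G)) := by
        rw [omegaCenterThompson, omegaOne, Subgroup.closure_le]
        rintro x ⟨⟨-, hx⟩, -⟩
        exact hx
      exact h1 hw
    have h2 := Subgroup.mem_centralizer_iff.mp hw1 j hj
    exact (congrArg Subtype.val h2).symm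
  have hJle : thompsonSubgroupOf p (P : Subgroup G) ≤ (P : Subgroup G) ⊓ C :=
    le_inf (thompsonOf_le _) hJW
  have hJeq := thompsonOf_eq_of_between (p := p) (inf_le_left : (P : Subgroup G) ⊓ C ≤ P) hJle
  have hn' := mem_normalizer_thompsonOf (p := p) hn
  rw [hJeq] at hn'
  refine ⟨(c⁻¹ * g⁻¹)⁻¹, Subgroup.inv_mem _ hn', c⁻¹, ?_, by group⟩
  apply Subgroup.inv_mem
  -- the centralizer contains `C`
  have hsub : {x : G | x ∈ (P : Subgroup G) ∧ (∀ y ∈ (P : Subgroup G), x * y = y * x) ∧ x ^ p = 1} ⊆ (W : Set G) := by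
    rintro x ⟨hxP, hxc, hxp⟩
    refine ⟨⟨x, hxP⟩, ?_, rfl⟩
    have h1 := (sInf_maxEA_eq (G := ↥(P : Subgroup G)) (p := p)).2
    rw [SetLike.mem_coe, h1, omegaOne]
    apply Subgroup.subset_closure
    refine ⟨?_, Subtype.ext hxp⟩
    rw [Subgroup.mem_centralizer_iff]
    intro j _
    exact Subtype.ext (hxc _ j.2).symm
  exact Subgroup.centralizer_le hsub hc'

end Cfsg.Agent.Lib.Transfer
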